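import Cfsg.Agent.Trans.LocalTools
import Cfsg.Agent.Solv.Conj
import Mathlib.GroupTheory.Perm.ViaEmbedding

/-! Actions in which non-identity elements fix at most four points: the basic frame. -/

set_option autoImplicit false

namespace Cfsg.Lib.Fix4

open Subgroup Cfsg.Lib.Trans MulAction

variable {G : Type*} [Group G] (Ω : Type*) [MulAction G Ω]

/-- The pointwise stabilizer of the fixed point set of `x`. -/
def Kp (x : G) : Subgroup G where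
  carrier := {g | ∀ b : Ω, x • b = b → g • b = b}
  one_mem' := fun b _ => one_smul G b
  mul_mem' := fun {g h} hg hh b hb => by rw [mul_smul, hh b hb, hg b hb]
  inv_mem' := fun {g} hg b hb => inv_smul_eq_iff.2 (hg b hb).symm

/-- The stabilizer of the fixed point set of `x`. -/
def Ms (x : G) : Subgroup G where
  carrier := {g | ∀ b : Ω, x • g • b = g • b ↔ x • b = b}
  one_mem' := fun b => by rw [one_smul]
  mul_mem' := fun {g h} hg hh b => by rw [mul_smul, hg, hh]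
  inv_mem' := fun {g} hg b => by rw [← hg, smul_inv_smul]

/-- `x` and `y` have the same fixed points. -/
def Sm (x y : G) : Prop := ∀ b : Ω, x • b = b ↔ y • b = b

/-- The number of fixed points. -/
noncomputable abbrev nf (x : G) : ℕ := Nat.card (fixedBy Ω x)

variable {Ω}

theorem mem_Kp {x g : G} : g ∈ Kp Ω x ↔ ∀ b : Ω, x • b = b → g • b = b := Iff.rfl

theorem mem_Ms {x g : G} : g ∈ Ms Ω x ↔ ∀ b : Ω, x • g • b = g • b ↔ x • b = b := Iff.rfl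

theorem self_mem_Kp (x : G) : x ∈ Kp Ω x := fun _ h => h

theorem Sm.refl (x : G) : Sm Ω x x := fun _ => Iff.rfl

theorem Sm.symm {x y : G} (h : Sm Ω x y) : Sm Ω y x := fun b => (h b).symm

theorem Sm.trans {x y z : G} (h : Sm Ω x y) (h' : Sm Ω y z) : Sm Ω x z :=
  fun b => (h b).trans (h' b)

theorem Sm.Kp_eq {x y : G} (h : Sm Ω x y) : Kp Ω x = Kp Ω y := by
  ext g; simp only [mem_Kp, h _]

theorem Sm.Ms_eq {x y : G} (h : Sm Ω x y) : Ms Ω x = Ms Ω y := by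
  ext g; simp only [mem_Ms, h _]

theorem Sm.nf_eq {x y : G} (h : Sm Ω x y) : nf Ω x = nf Ω y := by
  have : fixedBy Ω x = fixedBy Ω y := Set.ext h
  rw [nf, this]

theorem conj_smul_iff {g x : G} {b : Ω} : (g * x * g⁻¹) • b = b ↔ x • g⁻¹ • b = g⁻¹ • b := by
  rw [mul_smul, mul_smul, smul_eq_iff_eq_inv_smul]

theorem mem_Ms_iff {x g : G} : g ∈ Ms Ω x ↔ Sm Ω (g * x * g⁻¹) x := by
  rw [← inv_mem_iff, mem_Ms]
  exact forall_congr' fun b => by rw [conj_smul_iff]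

theorem Sm.conj {x y : G} (h : Sm Ω x y) (g : G) : Sm Ω (g * x * g⁻¹) (g * y * g⁻¹) :=
  fun b => by rw [conj_smul_iff, conj_smul_iff, h]

theorem Kp_conj (g x : G) : Kp Ω (g * x * g⁻¹) = cj g (Kp Ω x) := by
  ext u
  rw [mem_cj, mem_Kp, mem_Kp]
  refine ⟨fun h b hb => ?_, fun h b hb => ?_⟩
  · rw [mul_smul, mul_smul, h _ (by rwa [conj_smul_iff, inv_smul_smul]), inv_smul_smul]
  · have := h _ (conj_smul_iff.1 hb)
    rwa [mul_smul, smul_inv_smul, mul_smul, smul_left_cancel_iff] at this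

theorem Ms_conj (g x : G) : Ms Ω (g * x * g⁻¹) = cj g (Ms Ω x) := by
  ext u
  rw [mem_cj, mem_Ms_iff, mem_Ms_iff]
  refine ⟨fun h => ?_, fun h => ?_⟩
  · have := h.conj g⁻¹
    convert this using 1 <;> group
  · have := h.conj g
    convert this using 1
    group

theorem nf_conj (g x : G) : nf Ω (g * x * g⁻¹) = nf Ω x :=
  Nat.card_congr ((MulAction.toPerm g⁻¹).subtypeEquiv fun _ => conj_smul_iff)

theorem mem_Ms_of_comm {x g : G} (h : g * x = x * g) : g ∈ Ms Ω x := by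
  rw [mem_Ms_iff, h, mul_inv_cancel_right]; exact Sm.refl x

theorem conj_mem_Kp {x g u : G} (hg : g ∈ Ms Ω x) (hu : u ∈ Kp Ω x) : g * u * g⁻¹ ∈ Kp Ω x := by
  rw [← (mem_Ms_iff.1 hg).Kp_eq, Kp_conj]; exact conj_mem_cj.2 hu

theorem Kp_le_Ms (x : G) : Kp Ω x ≤ Ms Ω x := fun g hg b => by
  refine ⟨fun h => ?_, fun h => by rw [hg b h, h]⟩
  have h1 := hg _ h
  rw [smul_left_cancel_iff] at h1
  rwa [h1] at h

theorem sm_of_mem [Finite Ω] {x u : G} (hu : u ∈ Kp Ω x) (h : nf Ω u ≤ nf Ω x) : Sm Ω u x := by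
  have : fixedBy Ω x = fixedBy Ω u :=
    Set.eq_of_subset_of_ncard_le (fun b hb => hu b hb) h
  exact fun b => (Set.ext_iff.1 this b).symm

theorem nf_le_pow [Finite Ω] (x : G) (k : ℕ) : nf Ω x ≤ nf Ω (x ^ k) :=
  Set.ncard_le_ncard (fun b hb => pow_mem (self_mem_Kp x) k b hb)

/-- The action on the fixed point set of `x`, inside the symmetric group of degree four. -/
structure Fr (Ω : Type*) [MulAction G Ω] (x : G) (ψ : Ms Ω x →* Equiv.Perm (Fin 4)) : Prop where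
  ker : ∀ g, ψ g = 1 ↔ (g : G) ∈ Kp Ω x
  pt : ∀ b : Ω, x • b = b → ∃ j, ∀ g, ψ g j = j ↔ (g : G) • b = b
  mv : ∀ g k j, ψ g j ≠ j → ψ k j = j → ∃ b : Ω, x • b = b ∧ (k : G) • b = b
  small : nf Ω x ≤ 3 → ∃ j, ∀ g, ψ g j = j
  full : nf Ω x = 4 → ∀ k j, ψ k j = j → ∃ b : Ω, x • b = b ∧ (k : G) • b = b

theorem exists_fr [Finite Ω] {x : G} (h : nf Ω x ≤ 4) : ∃ ψ, Fr Ω x ψ := by
  obtain ⟨ι⟩ : Nonempty (fixedBy Ω x ↪ Fin 4) := by
    have := Fintype.ofFinite (fixedBy Ω x)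
    exact Function.Embedding.nonempty_of_card_le (by
      rwa [Fintype.card_fin, ← Nat.card_eq_fintype_card])
  let φ : Ms Ω x →* Equiv.Perm (fixedBy Ω x) :=
    { toFun := fun g => (MulAction.toPerm (g : G)).subtypePerm fun b => g.2 b
      map_one' := by ext b; simp
      map_mul' := fun g k => by ext b; exact mul_smul (g : G) (k : G) (b : Ω) }
  have hφ : ∀ g b, ((φ g b : fixedBy Ω x) : Ω) = (g : G) • (b : Ω) := fun _ _ => rfl
  have hψ : ∀ g b, (Equiv.Perm.viaEmbeddingHom ι).comp φ g (ι b) = ι b ↔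
      (g : G) • (b : Ω) = b := fun g b => by
    rw [MonoidHom.comp_apply, Equiv.Perm.viaEmbeddingHom_apply, Equiv.Perm.viaEmbedding_apply,
      ι.injective.eq_iff, Subtype.ext_iff, hφ]
  have hψ' : ∀ g j, j ∉ Set.range ι → (Equiv.Perm.viaEmbeddingHom ι).comp φ g j = j :=
    fun g j hj => Equiv.Perm.viaEmbedding_apply_of_notMem _ _ _ hj
  refine ⟨(Equiv.Perm.viaEmbeddingHom ι).comp φ, fun g => ⟨fun h1 b hb => ?_, fun h1 => ?_⟩,
    fun b hb => ⟨ι ⟨b, hb⟩, fun g => hψ g _⟩, fun g k j h1 h2 => ?_, fun h3 => ?_,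
    fun h4 k j h2 => ?_⟩
  · exact (hψ g ⟨b, hb⟩).1 (by rw [h1]; rfl)
  · ext j
    by_cases hj : j ∈ Set.range ι
    · obtain ⟨b, rfl⟩ := hj
      rw [(hψ g b).2 (h1 b b.2)]; rfl
    · rw [hψ' g j hj]; rfl
  · obtain ⟨b, rfl⟩ : j ∈ Set.range ι := by_contra fun hj => h1 (hψ' g j hj)
    exact ⟨b, b.2, (hψ k b).1 h2⟩
  · by_contra hn
    push Not at hn
    have hs : Function.Surjective ι := fun j => by_contra fun hj => by
      obtain ⟨g, hg⟩ := hn j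
      exact hg (hψ' g j hj)
    have := Nat.card_le_card_of_surjective _ hs
    rw [Nat.card_eq_fintype_card, Fintype.card_fin] at this
    exact absurd (this.trans h3) (by decide)
  · have hs := (Nat.bijective_iff_injective_and_card ι).2 ⟨ι.injective, by
      rw [Nat.card_eq_fintype_card (α := Fin 4), Fintype.card_fin]; exact h4⟩
    obtain ⟨b, rfl⟩ := hs.2 j
    exact ⟨b, b.2, (hψ k b).1 h2⟩

theorem card_stab (j : Fin 4) : Nat.card (stabilizer (Equiv.Perm (Fin 4)) j) = 6 := by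
  have h1 := (stabilizer (Equiv.Perm (Fin 4)) j).card_mul_index
  rw [index_stabilizer_of_transitive, Nat.card_perm, Nat.card_eq_fintype_card (α := Fin 4),
    Fintype.card_fin, show Nat.factorial 4 = 24 from rfl] at h1
  omega

theorem pow_le_of_dvd {p k m c : ℕ} (hp : p.Prime) (h : p ^ k ∣ p ^ c * m) (hm : ¬ p ∣ m) :
    p ^ k ≤ p ^ c :=
  Nat.le_of_dvd (pow_pos hp.pos c) ((Nat.Coprime.pow_left k
    ((Nat.Prime.coprime_iff_not_dvd hp).2 hm)).dvd_of_dvd_mul_right h)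

namespace Fr

variable {x : G} {ψ : Ms Ω x →* Equiv.Perm (Fin 4)} (h : Fr Ω x ψ) [Finite G]
include h

theorem card_le {p c m : ℕ} [hp : Fact p.Prime] {V : Subgroup G} (hV : V ≤ Ms Ω x)
    (h2 : IsPGroup p V) {A : Subgroup (Equiv.Perm (Fin 4))} (hA : ∀ g : Ms Ω x, (g : G) ∈ V → ψ g ∈ A)
    (hc : Nat.card A = p ^ c * m) (hm : ¬ p ∣ m) :
    Nat.card V ≤ p ^ c * Nat.card (V ⊓ Kp Ω x : Subgroup G) := by
  let f := ψ.comp (inclusion hV)
  have h1 : f.ker = (V ⊓ Kp Ω x).subgroupOf V := by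
    ext g
    rw [MonoidHom.mem_ker, mem_subgroupOf, mem_inf, and_iff_right g.2]
    exact h.ker _
  have h3 := f.ker.card_mul_index
  rw [index_ker, h1, Nat.card_congr (subgroupOfEquivOfLe inf_le_left).toEquiv] at h3
  obtain ⟨k, hk⟩ := IsPGroup.exists_card_eq (h2.of_surjective f.rangeRestrict
    f.rangeRestrict_surjective)
  have h4 : f.range ≤ A := by
    rintro _ ⟨g, rfl⟩
    exact hA _ g.2
  have h5 := pow_le_of_dvd hp.out (hk ▸ hc ▸ card_dvd_of_le h4) hm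
  rw [← h3, mul_comm, hk]
  exact Nat.mul_le_mul_right _ h5

theorem card_two {V : Subgroup G} (hV : V ≤ Ms Ω x) (h2 : IsPGroup 2 V) :
    Nat.card V ≤ 8 * Nat.card (V ⊓ Kp Ω x : Subgroup G) :=
  haveI : Fact (Nat.Prime 2) := ⟨Nat.prime_two⟩
  h.card_le (c := 3) (m := 3) hV h2 (A := ⊤) (fun _ _ => mem_top _) (by
    rw [card_top, Nat.card_perm, Nat.card_eq_fintype_card, Fintype.card_fin]; rfl) (by decide)

theorem card_three {V : Subgroup G} (hV : V ≤ Ms Ω x) (h2 : IsPGroup 3 V) :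
    Nat.card V ≤ 3 * Nat.card (V ⊓ Kp Ω x : Subgroup G) :=
  haveI : Fact (Nat.Prime 3) := ⟨Nat.prime_three⟩
  h.card_le (c := 1) (m := 8) hV h2 (A := ⊤) (fun _ _ => mem_top _) (by
    rw [card_top, Nat.card_perm, Nat.card_eq_fintype_card, Fintype.card_fin]; rfl) (by decide)

theorem card_two_fix {V : Subgroup G} (hV : V ≤ Ms Ω x) (h2 : IsPGroup 2 V) {j : Fin 4}
    (hj : ∀ g : Ms Ω x, (g : G) ∈ V → ψ g j = j) :
    Nat.card V ≤ 2 * Nat.card (V ⊓ Kp Ω x : Subgroup G) :=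
  haveI : Fact (Nat.Prime 2) := ⟨Nat.prime_two⟩
  h.card_le (c := 1) (m := 3) hV h2 (A := stabilizer _ j) hj (card_stab j) (by decide)

omit h [Finite G] in
theorem pow_three {V : Subgroup G} (h2 : IsPGroup 3 V) {g : Ms Ω x} (hg : (g : G) ∈ V) :
    ψ g ^ 3 = 1 := by
  have : Fact (Nat.Prime 3) := ⟨Nat.prime_three⟩
  obtain ⟨k, hk⟩ := h2 ⟨g, hg⟩
  have h1 : ψ g ^ 3 ^ k = 1 := by
    rw [← map_pow, show g ^ 3 ^ k = 1 from Subtype.ext (congrArg Subtype.val hk :), map_one]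
  have h3 : ∀ σ : Equiv.Perm (Fin 4), σ ^ 12 = 1 := by decide +kernel
  have h4 := Nat.dvd_gcd (orderOf_dvd_of_pow_eq_one h1) (orderOf_dvd_of_pow_eq_one (h3 (ψ g)))
  have h5 : Nat.gcd (3 ^ k) 12 ∣ 3 := by
    have : Nat.Coprime (3 ^ k) 4 := Nat.Coprime.pow_left k (by decide)
    rw [show 12 = 4 * 3 from rfl, Nat.Coprime.gcd_mul_left_cancel_right _ this.symm]
    exact Nat.gcd_dvd_right _ _
  exact orderOf_dvd_iff_pow_eq_one.1 (h4.trans h5)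

end Fr

/-- An element of order `p` with the largest number `n` of fixed points. -/
structure Big (Ω : Type*) [MulAction G Ω] (p n : ℕ) (x : G) : Prop where
  ord : orderOf x = p
  nf_eq : nf Ω x = n
  max : ∀ y : G, orderOf y = p → nf Ω y ≤ n

theorem Big.conj {p n : ℕ} {x : G} (h : Big Ω p n x) (g : G) : Big Ω p n (g * x * g⁻¹) :=
  ⟨by rw [← h.ord]; exact (MulAut.conj g).orderOf_eq x, by rw [nf_conj, h.nf_eq], h.max⟩

variable [Finite Ω] {p n : ℕ} [hp : Fact p.Prime] {x y : G} {P : Subgroup G}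

omit [Finite Ω] in
theorem exists_pow_order (hP : IsPGroup p P) {u : G} (hu : u ∈ P) (h1 : u ≠ 1) :
    ∃ k, orderOf (u ^ k) = p := by
  obtain ⟨k, hk⟩ := IsPGroup.iff_orderOf.1 hP ⟨u, hu⟩
  rw [← Subgroup.orderOf_coe] at hk
  rcases k with _ | k
  · exact absurd (orderOf_eq_one_iff.1 (by simpa using hk)) h1
  · refine ⟨p ^ k, ?_⟩
    rw [orderOf_pow_of_dvd (pow_pos hp.out.pos k).ne' (hk ▸ pow_dvd_pow p k.le_succ), hk, pow_succ,
      Nat.mul_div_cancel_left _ (pow_pos hp.out.pos k)]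

theorem Big.sm (h : Big Ω p n x) (hP : IsPGroup p P) {u : G} (hu : u ∈ P) (hK : u ∈ Kp Ω x)
    (h1 : u ≠ 1) : Sm Ω u x := by
  obtain ⟨k, hk⟩ := exists_pow_order hP hu h1
  exact sm_of_mem hK ((nf_le_pow u k).trans (h.nf_eq ▸ h.max _ hk))

theorem Big.of_mem (h : Big Ω p n x) {u : G} (hK : u ∈ Kp Ω x) (ho : orderOf u = p) :
    Big Ω p n u :=
  ⟨ho, (sm_of_mem hK (h.nf_eq ▸ h.max _ ho)).nf_eq.trans h.nf_eq, h.max⟩

theorem Big.cent (h : Big Ω p n x) (hP : IsPGroup p P) {u g : G} (hu : u ∈ P) (hK : u ∈ Kp Ω x)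
    (h1 : u ≠ 1) (hg : g * u = u * g) : g ∈ Ms Ω x :=
  (h.sm hP hu hK h1).Ms_eq ▸ mem_Ms_of_comm hg

theorem Big.inf_eq_bot (h : Big Ω p n x) (h' : Big Ω p n y) (hP : IsPGroup p P)
    (hn : ¬ Sm Ω x y) : (P ⊓ Kp Ω x) ⊓ (P ⊓ Kp Ω y) = ⊥ :=
  (eq_bot_iff_forall _).2 fun u hu => by_contra fun h1 =>
    hn ((h.sm hP hu.1.1 hu.1.2 h1).symm.trans (h'.sm hP hu.1.1 hu.2.2 h1))

theorem Big.ne_one (h : Big Ω p n x) : x ≠ 1 := fun e =>
  hp.out.one_lt.ne' (h.ord.symm.trans (orderOf_eq_one_iff.2 e))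

theorem Big.closed (h : Big Ω p n x) (hP : IsPGroup p P) (hall : ∀ y ∈ P, Big Ω p n y → Sm Ω y x)
    {u g : G} (hu : u ∈ P) (hK : u ∈ Kp Ω x) (h1 : u ≠ 1) (hg : g * u * g⁻¹ ∈ P) :
    g ∈ Ms Ω x := by
  obtain ⟨k, hk⟩ := exists_pow_order hP hu h1
  have h2 := h.of_mem (pow_mem hK k) hk
  exact mem_Ms_iff.2 (((h.sm hP (pow_mem hu k) (pow_mem hK k) h2.ne_one).conj g).symm.trans
    (hall _ (conj_pow (a := g) (b := u) ▸ pow_mem hg k) (h2.conj g)))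

omit [Finite Ω] in
theorem Big.exists_mem [Finite G] (h : Big Ω p n x) (hP : IsSylowIn p P ⊤) :
    ∃ y ∈ P, Big Ω p n y := by
  obtain ⟨g, -, hg⟩ := hP.exists_cj_le (Q := zpowers x)
    (IsPGroup.of_card (n := 1) (by rw [Nat.card_zpowers, h.ord, pow_one])) le_top
  exact ⟨_, hg (conj_mem_cj.2 (mem_zpowers x)), h.conj g⟩

theorem Big.Ms_ne_top [FaithfulSMul G Ω] [IsPretransitive G Ω] (h : Big Ω p n x) (hn : 1 ≤ n) :
    Ms Ω x ≠ ⊤ := fun e => by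
  obtain ⟨⟨b, hb⟩⟩ := (Nat.card_pos_iff.1 (show 0 < nf Ω x from h.nf_eq ▸ hn)).1
  refine h.ne_one (eq_of_smul_eq_smul fun c : Ω => ?_)
  obtain ⟨g, rfl⟩ := exists_smul_eq G b c
  rw [one_smul]
  exact ((e ▸ mem_top g : g ∈ Ms Ω x) b).2 hb

/-- Two big elements of `P` with different fixed point sets and the same set stabilizer in `P`. -/
structure Pair (Ω : Type*) [MulAction G Ω] (p n : ℕ) (P : Subgroup G) (x y : G) : Prop where
  pg : IsPGroup p P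
  bx : Big Ω p n x
  by' : Big Ω p n y
  hx : x ∈ P
  hy : y ∈ P
  ne : ¬ Sm Ω x y
  eq : P ⊓ Ms Ω x = P ⊓ Ms Ω y
  alt : P ≤ Ms Ω x ∨ ∃ s, cj s (P ⊓ Kp Ω x) = P ⊓ Kp Ω y

theorem dichotomy [Finite G] (hP : IsPGroup p P) (h : Big Ω p n x) (hx : x ∈ P) :
    (∃ x y, Pair Ω p n P x y) ∨ (P ≤ Ms Ω x ∧ ∀ y ∈ P, Big Ω p n y → Sm Ω y x) := by
  by_cases h1 : ∀ y ∈ P, Big Ω p n y → P ≤ Ms Ω y
  · by_cases h2 : ∀ y ∈ P, Big Ω p n y → Sm Ω y x
    · exact Or.inr ⟨h1 x hx h, h2⟩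
    · push Not at h2
      obtain ⟨y, hy, hb, hn⟩ := h2
      exact Or.inl ⟨y, x, hP, hb, h, hy, hx, hn, by
        rw [inf_of_le_left (h1 y hy hb), inf_of_le_left (h1 x hx h)], Or.inl (h1 y hy hb)⟩
  · push Not at h1
    obtain ⟨y, hy, hb, hn⟩ := h1
    obtain ⟨s, hs, hs'⟩ := SetLike.exists_of_lt (lt_inf_normalizer hP
      (lt_of_le_not_ge (inf_le_left : P ⊓ Ms Ω y ≤ P) fun h => hn fun a ha => (h ha).2))
    refine Or.inl ⟨y, s * y * s⁻¹, hP, hb, hb.conj s, hy,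
      mul_mem (mul_mem hs.1 hy) (inv_mem hs.1), fun h => hs' ⟨hs.1, mem_Ms_iff.2 h.symm⟩, ?_,
      Or.inr ⟨s, ?_⟩⟩
    · rw [Ms_conj, ← cj_eq_of_mem_normalizer hs.2, cj_inf, cj_eq_of_mem hs.1]
    · rw [Kp_conj, cj_inf, cj_eq_of_mem hs.1]

namespace Pair

variable (h : Pair Ω p n P x y)
include h

omit [Finite Ω] hp in
theorem symm : Pair Ω p n P y x :=
  ⟨h.pg, h.by', h.bx, h.hy, h.hx, fun e => h.ne e.symm, h.eq.symm,
    h.alt.imp (fun h1 a ha => (h.eq.le ⟨ha, h1 ha⟩).2) fun ⟨s, hs⟩ => ⟨s⁻¹, by rw [← hs, cj_inv_cj]⟩⟩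

theorem inf : (P ⊓ Kp Ω x) ⊓ (P ⊓ Kp Ω y) = ⊥ := h.bx.inf_eq_bot h.by' h.pg h.ne

omit [Finite Ω] hp in
theorem le : P ⊓ Kp Ω y ≤ P ⊓ Ms Ω x := h.eq ▸ inf_le_inf_left _ (Kp_le_Ms y)

theorem comm {a b : G} (ha : a ∈ P ⊓ Kp Ω x) (hb : b ∈ P ⊓ Kp Ω y) : a * b = b * a := by
  have h1 : a * b * a⁻¹ * b⁻¹ ∈ (P ⊓ Kp Ω x) ⊓ (P ⊓ Kp Ω y) := by
    have hP : a * b * a⁻¹ * b⁻¹ ∈ P :=
      mul_mem (mul_mem (mul_mem ha.1 hb.1) (P.inv_mem ha.1)) (P.inv_mem hb.1)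
    refine ⟨⟨hP, ?_⟩, hP, mul_mem (conj_mem_Kp (h.symm.le ha).2 hb.2) ((Kp Ω y).inv_mem hb.2)⟩
    rw [mul_assoc, mul_assoc, ← mul_assoc b]
    exact mul_mem ha.2 (conj_mem_Kp (h.le hb).2 ((Kp Ω x).inv_mem ha.2))
  rw [h.inf, mem_bot, mul_inv_eq_one, mul_inv_eq_iff_eq_mul] at h1
  exact h1

theorem card_sup : Nat.card ((P ⊓ Kp Ω x) ⊔ (P ⊓ Kp Ω y) : Subgroup G) =
    Nat.card (P ⊓ Kp Ω x : Subgroup G) * Nat.card (P ⊓ Kp Ω y : Subgroup G) :=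
  Solv.card_sup_of_disjoint_of_le_normalizer (fun b hb => centralizer_le_normalizer _
    fun a ha => h.comm ha hb) h.inf

omit [Finite Ω] hp in
theorem sup_le' : (P ⊓ Kp Ω x) ⊔ (P ⊓ Kp Ω y) ≤ P ⊓ Ms Ω x :=
  sup_le (inf_le_inf_left _ (Kp_le_Ms x)) h.le

omit [Finite Ω] hp h in
theorem inf_Kp : P ⊓ Ms Ω x ⊓ Kp Ω x = P ⊓ Kp Ω x := by
  rw [inf_assoc, inf_of_le_right (Kp_le_Ms x)]

omit [Finite Ω] hp in
theorem le_card [Finite G] : p ≤ Nat.card (P ⊓ Kp Ω x : Subgroup G) := by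
  rw [← h.bx.ord, ← Nat.card_zpowers]
  exact Trans.card_le_of_le (zpowers_le.2 ⟨h.hx, self_mem_Kp x⟩)

/-- If the stabilizer acts on the fixed point sets as a group of order at most `p`. -/
theorem small [Finite G]
    (h1 : Nat.card (P ⊓ Ms Ω x : Subgroup G) ≤ p * Nat.card (P ⊓ Kp Ω x : Subgroup G))
    (h2 : Nat.card (P ⊓ Ms Ω y : Subgroup G) ≤ p * Nat.card (P ⊓ Kp Ω y : Subgroup G)) :
    Nat.card (P ⊓ Ms Ω x : Subgroup G) = p * p ∧ P ⊓ centralizer {x} = P ⊓ Ms Ω x ∧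
      ∀ u ∈ P ⊓ Ms Ω x, u ^ p = 1 := by
  have a1 := h.card_sup
  have a2 := Trans.card_le_of_le h.sup_le'
  have a3 := h.le_card
  have a4 := h.symm.le_card
  rw [← h.eq] at h2
  have pos : ∀ U : Subgroup G, 0 < Nat.card U := fun U => Nat.card_pos
  have b1 : Nat.card (P ⊓ Kp Ω y : Subgroup G) = p := le_antisymm
    (Nat.le_of_mul_le_mul_left (by rw [← a1, mul_comm _ p]; exact a2.trans h1) (pos _)) a4
  have b2 : Nat.card (P ⊓ Kp Ω x : Subgroup G) = p := le_antisymm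
    (Nat.le_of_mul_le_mul_right (by rw [← a1]; exact a2.trans h2) (pos _)) a3
  rw [b1, b2] at a1
  rw [b2] at h1
  have b3 := eq_of_le_of_card_ge h.sup_le' (h1.trans a1.ge)
  have key : ∀ u ∈ P ⊓ Ms Ω x, ∃ a ∈ P ⊓ Kp Ω x, ∃ b ∈ P ⊓ Kp Ω y, a * b = u := fun u hu => by
    rw [← b3] at hu
    obtain ⟨a, ha, b, hb, e⟩ := (Solv.mem_sup_of_le_normalizer (H := P ⊓ Kp Ω y)
      (N := P ⊓ Kp Ω x) fun b hb => centralizer_le_normalizer _ fun a ha => h.comm ha hb).1 hu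
    exact ⟨a, ha, b, hb, e⟩
  have hz : P ⊓ Kp Ω x = zpowers x := (eq_of_le_of_card_ge
    (zpowers_le.2 (mem_inf.2 ⟨h.hx, self_mem_Kp x⟩))
    (by rw [b2, Nat.card_zpowers, h.bx.ord])).symm
  refine ⟨b3 ▸ a1, le_antisymm (inf_le_inf_left _ fun g hg =>
    mem_Ms_of_comm (mem_centralizer_singleton_iff.1 hg)) fun u hu => ⟨hu.1, ?_⟩, fun u hu => ?_⟩
  · obtain ⟨a, ha, b, hb, rfl⟩ := key u hu
    refine mul_mem ?_ (mem_centralizer_singleton_iff.2 (h.comm ⟨h.hx, self_mem_Kp x⟩ hb).symm)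
    rw [hz] at ha
    obtain ⟨k, rfl⟩ := ha
    exact zpow_mem (mem_centralizer_singleton_iff.2 rfl) k
  · obtain ⟨a, ha, b, hb, rfl⟩ := key u hu
    have c1 : a ^ p = 1 := b2 ▸ congrArg Subtype.val (pow_card_eq_one' (x := (⟨a, ha⟩ :
      (P ⊓ Kp Ω x : Subgroup G))))
    have c2 : b ^ p = 1 := b1 ▸ congrArg Subtype.val (pow_card_eq_one' (x := (⟨b, hb⟩ :
      (P ⊓ Kp Ω y : Subgroup G))))
    rw [(show Commute a b from h.comm ha hb).mul_pow, c1, c2, one_mul]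

end Pair

end Cfsg.Lib.Fix4
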