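import Cfsg.Agent.Trans.Yoshida
import Cfsg.Agent.Trans.MaxClass
import Cfsg.Agent.FT.BG4.Elem
import Cfsg.Agent.CITCor.NineAut

/-! Three-groups with an element of order three whose centralizer has order nine. -/

set_option autoImplicit false

namespace Cfsg.Lib.Fix4

open Subgroup Cfsg.Lib.Trans Cfsg.Lib.Solv.PG Cfsg.Lib.CITCor.Nine
open scoped commutatorElement

theorem lin_one : ∀ a b : ZMod 3 × ZMod 3, (∃ v, v ≠ 0 ∧ lin a b v = 0) ∨
    (∀ v, (lin a b)^[6] v = v) ∨ (∀ v, (lin a b)^[4] v = -v) ∨ ∀ v, (lin a b)^[2] v = -v := by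
  decide +kernel

set_option synthInstance.maxSize 2000 in
set_option synthInstance.maxHeartbeats 200000 in
theorem lin_two : ∀ a b : ZMod 3 × ZMod 3, (∀ v, lin a b (lin a b v) = v) → (∃ v, lin a b v ≠ v) →
    (∃ v, lin a b v ≠ -v) → ∀ c d : ZMod 3 × ZMod 3, (∀ v, lin c d (lin c d v) = v) →
    (∃ v, lin c d v ≠ -v) → (∀ v, lin a b (lin c d (lin a b (lin c d v))) = v) →
    (∃ v, lin a b (lin c d v) ≠ -v) → ∀ v, lin a b (-v + lin c d v) = -(-v + lin c d v) := by
  decide +kernel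

theorem nine {R : Type*} [Group R] [Finite R] (hR : Nat.card R = 9) (hcy : ¬ IsCyclic R)
    (E : Subgroup (MulAut R)) (hE : ¬ 3 ∣ Nat.card E) (hneg : ∀ e ∈ E, ∃ w, e w ≠ w⁻¹) :
    ∃ K : Subgroup R, K ≠ ⊤ ∧ ∀ e ∈ E, ∀ w, w⁻¹ * e w ∈ K := by
  have : Fact (Nat.Prime 3) := ⟨Nat.prime_three⟩
  have hc := (IsPGroup.isMulCommutative_of_card_eq_prime_sq (p := 3) hR).is_comm.comm
  have h3 : ∀ w : R, w ^ 3 = 1 := fun w => by
    have h1 : orderOf w ∣ 3 ^ 2 := (orderOf_dvd_natCard w).trans hR.dvd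
    obtain ⟨k, hk, h2⟩ := (Nat.dvd_prime_pow Nat.prime_three).1 h1
    rw [← orderOf_dvd_iff_pow_eq_one, h2]
    interval_cases k
    · simp
    · simp
    · exact absurd (isCyclic_of_orderOf_eq_card w (h2.trans hR.symm)) hcy
  have : Nontrivial R := Finite.one_lt_card_iff_nontrivial.1 (by omega)
  obtain ⟨x, hx⟩ := exists_ne (1 : R)
  obtain ⟨y, hy⟩ : ∃ y, y ∉ zpowers x := by
    by_contra! c
    exact hcy ⟨x, c⟩
  obtain ⟨φ, -⟩ := exists_coord hc hR (h3 x) (h3 y) fun i j hi hj h => by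
    have h1 : y ^ j ∈ zpowers x := by
      rw [eq_inv_of_mul_eq_one_right h]
      exact inv_mem (pow_mem (mem_zpowers x) i)
    have hj : j = 0 := by
      interval_cases j
      · rfl
      · exact absurd (by simpa using h1) hy
      · refine absurd ?_ hy
        have := pow_mem h1 2
        rwa [← pow_mul, show 2 * 2 = 3 + 1 from rfl, pow_succ, h3, one_mul] at this
    subst hj
    rw [pow_zero, mul_one, ← orderOf_dvd_iff_pow_eq_one, orderOf_eq_prime (h3 x) hx] at h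
    omega
  let c : ZMod 3 × ZMod 3 ≃ R := Multiplicative.ofAdd.trans φ.toEquiv
  have c1 : ∀ v, c (-v) = (c v)⁻¹ := fun v => map_inv φ (Multiplicative.ofAdd v)
  have c2 : ∀ v w, c (v + w) = c v * c w := fun v w =>
    map_mul φ (Multiplicative.ofAdd v) (Multiplicative.ofAdd w)
  have hM : ∀ e : MulAut R, ∃ a b, ∀ v, c (lin a b v) = e (c v) := fun e => by
    let g : ZMod 3 × ZMod 3 →+ ZMod 3 × ZMod 3 := AddMonoidHom.mk' (fun v => c.symm (e (c v)))
      fun v w => c.injective (by simp only [c2, map_mul, Equiv.apply_symm_apply])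
    refine ⟨g (1, 0), g (0, 1), fun v => (c.eq_symm_apply).1 (show _ = g v from ?_)⟩
    have : v = v.1 • ((1, 0) : ZMod 3 × ZMod 3) + v.2 • (0, 1) := by simp
    conv_rhs => rw [this, map_add, ZMod.map_smul, ZMod.map_smul]
    rfl
  have ng : ∀ e ∈ E, ∀ f : ZMod 3 × ZMod 3 → ZMod 3 × ZMod 3, (∀ v, c (f v) = e (c v)) →
      ∃ v, f v ≠ -v := fun e he f hf => by
    obtain ⟨w, hw⟩ := hneg e he
    obtain ⟨v, rfl⟩ := c.surjective w
    exact ⟨v, fun h => hw (by rw [← hf, h, c1])⟩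
  have h2 : ∀ e ∈ E, ∀ w, e (e w) = w := fun e he w => by
    obtain ⟨a, b, h⟩ := hM e
    have hi : ∀ (i : ℕ) v, c ((lin a b)^[i] v) = (e ^ i) (c v) := fun i v => by
      induction i with
      | zero => rfl
      | succ i ih => rw [Function.iterate_succ_apply', h, ih, pow_succ', MulAut.mul_apply]
    rcases lin_one a b with ⟨v, hv, h'⟩ | h' | h' | h'
    · have h0 : c 0 = 1 := map_one φ
      exact absurd (c.injective (e.injective (by rw [← h, h', h0, map_one]))) hv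
    · have h6 : e ^ 6 = 1 := MulEquiv.ext fun w => by
        obtain ⟨v, rfl⟩ := c.surjective w
        rw [← hi, h']; rfl
      have h7 : ¬ 3 ∣ orderOf e := fun c => hE (c.trans (E.orderOf_dvd_natCard he))
      have h8 := orderOf_dvd_iff_pow_eq_one.1 (((Nat.prime_three.coprime_iff_not_dvd.2
        h7).symm).dvd_of_dvd_mul_right (m := 2) (orderOf_dvd_of_pow_eq_one h6))
      rw [← MulAut.mul_apply, ← sq, h8]; rfl
    · obtain ⟨v, hv⟩ := ng _ (pow_mem he 4) _ (hi 4)
      exact absurd (h' v) hv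
    · obtain ⟨v, hv⟩ := ng _ (pow_mem he 2) _ (hi 2)
      exact absurd (h' v) hv
  by_cases h1 : ∀ e ∈ E, ∀ w, e w = w
  · exact ⟨⊥, bot_ne_top, fun e he w => by rw [h1 e he, inv_mul_cancel]; exact one_mem _⟩
  push Not at h1
  obtain ⟨e, he, w, hw⟩ := h1
  obtain ⟨a, b, h⟩ := hM e
  refine ⟨{ carrier := {w | e w = w⁻¹}
            one_mem' := by simp
            mul_mem' := fun {u v} hu hv => by
              rw [Set.mem_ofPred_eq, map_mul, hu, hv, hc, mul_inv_rev]
            inv_mem' := fun {u} hu => by rw [Set.mem_ofPred_eq, map_inv, hu] },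
    fun ht => ?_, fun e' he' u => ?_⟩
  · obtain ⟨u, hu⟩ := hneg e he
    exact hu ((eq_top_iff' _).1 ht u)
  obtain ⟨a', b', h'⟩ := hM e'
  obtain ⟨v, rfl⟩ := c.surjective u
  obtain ⟨w, rfl⟩ := c.surjective w
  have := congrArg c (lin_two a b (fun v => c.injective (by rw [h, h, h2 e he]))
    ⟨w, fun e => hw (by rw [← h, e])⟩ (ng e he _ h) a' b'
    (fun v => c.injective (by rw [h', h', h2 e' he'])) (ng e' he' _ h')
    (fun v => c.injective (by rw [h, h', h, h']; exact h2 _ (mul_mem he he') _))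
    (ng _ (mul_mem he he') _ fun v => by rw [h, h']; rfl) v)
  rwa [h, c1, c2, c1, h'] at this

variable {Q : Type*} [Group Q] [Finite Q]

theorem exists_comm_eq (hQ : IsPGroup 3 Q) {x : Q}
    (hx : Nat.card (centralizer ({x} : Set Q)) = 9) :
    (commutator Q).index = 9 ∧ ∀ c ∈ commutator Q, ∃ h : Q, ⁅h, x⁆ = c := by
  have : Fact (Nat.Prime 3) := ⟨Nat.prime_three⟩
  obtain ⟨k, hk⟩ := IsPGroup.exists_card_eq hQ
  have h1 := (centralizer ({x} : Set Q)).card_mul_index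
  obtain ⟨m, rfl⟩ : ∃ m, k = m + 2 := Nat.exists_eq_add_of_le'
    ((Nat.pow_dvd_pow_iff_le_right (by decide : 1 < 3)).1 (hk ▸ h1 ▸ hx ▸ Dvd.intro _ rfl))
  have h2 := card_commutator_le_of_card_eq hk
  let f : Q ⧸ centralizer ({x} : Set Q) → commutator Q := fun q =>
    ⟨⁅q.out, x⁆, commutator_mem_commutator (mem_top _) (mem_top _)⟩
  have hf : Function.Injective f := fun q r e => by
    have e' : ⁅q.out, x⁆ = ⁅r.out, x⁆ := congrArg Subtype.val e
    rw [← q.out_eq, ← r.out_eq]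
    refine QuotientGroup.eq.2 (mem_centralizer_singleton_iff.2 ?_)
    calc q.out⁻¹ * r.out * x = q.out⁻¹ * ⁅r.out, x⁆ * x * r.out := by group
      _ = _ := by rw [← e']; group
  have h3 := Nat.card_le_card_of_injective f hf
  have h4 := (commutator Q).card_mul_index
  rw [← index_eq_card] at h3
  rw [hx, hk, pow_add] at h1
  have h5 : Nat.card (commutator Q) = 3 ^ m := by omega
  rw [h5, hk, pow_add] at h4
  refine ⟨Nat.eq_of_mul_eq_mul_left (by positivity) h4, fun c hc => ?_⟩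
  obtain ⟨q, hq⟩ := ((Nat.bijective_iff_injective_and_card f).2 ⟨hf, by
    rw [← index_eq_card]; omega⟩).2 ⟨c, hc⟩
  exact ⟨_, congrArg Subtype.val hq⟩

theorem card_le_of_ker {W : Type*} [Group W] (φ : Q →* W) (hZ : φ.ker ≤ center Q)
    (h3 : Nat.card φ.ker = 3) {A : Subgroup Q} [hA : A.Normal] (hRA : φ.ker ≤ A)
    (hA1 : ∀ a ∈ A, ∀ b ∈ A, ⁅a, b⁆ ∈ φ.ker) (hA3 : ∀ a ∈ A, a ^ 3 ∈ φ.ker) {x : Q}
    (hx : x ^ 3 = 1) (hC : Nat.card (centralizer ({x} : Set Q)) ≤ 9) : Nat.card A ≤ 27 := by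
  have c1 := card_mul_relIndex (inf_le_right : centralizer {x} ⊓ A ≤ A)
  rw [inf_relIndex_right] at c1
  by_cases hxA : x ∈ A
  · have c2 := FT.BG4.relIndex_centralizer_le_card fun a (ha : a ∈ A) => hA1 a ha x hxA
    have c3 := Trans.card_le_of_le (inf_le_left : centralizer {x} ⊓ A ≤ _)
    nlinarith
  have hN : x ∈ normalizer ((centralizer {x} ⊓ A : Subgroup Q) : Set Q) :=
    centralizer_le_normalizer _ fun a ha => mem_centralizer_singleton_iff.1 ha.1
  have c2 := card_sup_zpowers Nat.prime_three hN (fun h => hxA h.2) (hx ▸ one_mem _)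
  have c3 := Trans.card_le_of_le (sup_le (inf_le_left : centralizer {x} ⊓ A ≤ _)
    (zpowers_le.2 (mem_centralizer_singleton_iff.2 rfl)))
  have cen : ∀ r ∈ φ.ker, ∀ g, g * r = r * g := fun r hr => mem_center_iff.1 (hZ hr)
  have c4 : φ.ker = centralizer {x} ⊓ A := eq_of_le_of_card_ge
    (le_inf (fun r hr => mem_centralizer_singleton_iff.2 (cen r hr x).symm) hRA) (by omega)
  have r3 : ∀ r ∈ φ.ker, r ^ 3 = 1 := fun r hr =>
    h3 ▸ congrArg Subtype.val (pow_card_eq_one' (x := (⟨r, hr⟩ : φ.ker)))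
  have sw : ∀ a ∈ A, ∀ b ∈ A, b * a = a * b * ⁅b, a⁆ := fun a ha b hb => by
    rw [cen _ (hA1 b hb a ha)]; group
  have cube : ∀ a ∈ A, ∀ b ∈ A, (a * b) ^ 3 = a ^ 3 * b ^ 3 := fun a ha b hb => by
    have e := sw a ha b hb
    have z := cen _ (hA1 b hb a ha)
    have z3 := r3 _ (hA1 b hb a ha)
    generalize ⁅b, a⁆ = r at e z z3
    have e' : ∀ t, b * (a * t) = a * (b * (r * t)) := fun t => by
      rw [← mul_assoc, e]; group
    have z' : ∀ g t, r * (g * t) = g * (r * t) := fun g t => by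
      rw [← mul_assoc, ← z, mul_assoc]
    calc (a * b) ^ 3 = a * (b * (a * (b * (a * b)))) := by rw [pow_three]; group
      _ = a * (a * (a * (b * (b * (r * (r * (r * b))))))) := by
          rw [e' b, e', z' a, e', z' b (r * _), z' b (r * _)]
      _ = _ := by rw [← mul_assoc r, ← mul_assoc (r * r), ← pow_three', z3, pow_three, pow_three]; group
  let d : Q → Q := fun a => a⁻¹ * (x * a * x⁻¹)
  have hd : ∀ a, x * a * x⁻¹ = a * d a := fun a => (mul_inv_cancel_left _ _).symm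
  have dA : ∀ a ∈ A, d a ∈ A := fun a ha => mul_mem (inv_mem ha) (hA.conj_mem a ha x)
  have fix : ∀ r ∈ φ.ker, x * r * x⁻¹ = r := fun r hr => by rw [cen r hr, mul_inv_cancel_right]
  have d3 : ∀ a ∈ A, d a ^ 3 = 1 := fun a ha => by
    have := cube a ha _ (dA a ha)
    rwa [← hd, conj_pow, fix _ (hA3 a ha), left_eq_mul] at this
  have dd : ∀ a ∈ A, d (d a) ∈ φ.ker := fun a ha => by
    have m2 := dA a ha
    have m3 := dA _ m2
    have e1 := hd a
    have e2 := hd (d a)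
    have e3 := hd (d (d a))
    have t2 := d3 a ha
    have t3 := d3 _ m2
    generalize d (d (d a)) = a4 at e3
    generalize d (d a) = a3 at *
    generalize d a = a2 at *
    have e4 : a2 * (a2 * a3) * (a2 * a3 * (a3 * a4)) = 1 := by
      have : x * (x * (x * a * x⁻¹) * x⁻¹) * x⁻¹ = a := by
        rw [show x * (x * (x * a * x⁻¹) * x⁻¹) * x⁻¹ = x ^ 3 * a * (x ^ 3)⁻¹ by
          rw [pow_three]; group, hx]; group
      rw [e1, show x * (a * a2) * x⁻¹ = x * a * x⁻¹ * (x * a2 * x⁻¹) by group, e1, e2,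
        show x * (a * a2 * (a2 * a3)) * x⁻¹ = x * a * x⁻¹ * ((x * a2 * x⁻¹) *
          (x * a2 * x⁻¹ * (x * a3 * x⁻¹))) by group, e1, e2, e3, mul_assoc a, mul_eq_left] at this
      rw [← this]; group
    have e5 : ⁅a3, a2⁆ * a4 = 1 := by
      calc ⁅a3, a2⁆ * a4 = a2 ^ 3 * a3 * (a3 * a3 * ⁅a3, a2⁆) * a4 := by
            rw [t2, one_mul, ← mul_assoc, ← pow_three, t3, one_mul]
        _ = a2 * a2 * (a2 * a3 * ⁅a3, a2⁆) * (a3 * a3 * a4) := by
            rw [cen _ (hA1 a3 m3 a2 m2) (a3 * a3), pow_three]; simp only [mul_assoc]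
        _ = 1 := by rw [← sw a2 m2 a3 m3, ← e4]; simp only [mul_assoc]
    have r4 : a4 ∈ φ.ker := (mul_mem_cancel_left (hA1 a3 m3 a2 m2)).1 (e5 ▸ one_mem _)
    have e6 : ⁅a3, a * a2⁆ = ⁅a3, a⁆ := by
      rw [← fix _ (hA1 a3 m3 a ha), conjugate_commutatorElement, e3, e1, commutatorElement_def,
        commutatorElement_def, mul_assoc a3 a4, ← cen a4 r4]
      group
    have e7 : ⁅a3, a2⁆ = 1 := by
      rw [show ⁅a3, a * a2⁆ = ⁅a3, a⁆ * (a * ⁅a3, a2⁆ * a⁻¹) by group, mul_eq_left,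
        conj_eq_one_iff] at e6
      exact e6
    rw [e7, one_mul] at e5
    rw [e5, mul_one] at e3
    exact c4 ▸ ⟨mem_centralizer_singleton_iff.2 (mul_inv_eq_iff_eq_mul.1 e3).symm, m3⟩
  have dk : ∀ a, d a ∈ φ.ker ↔ φ a ∈ centralizer {φ x} := fun a => by
    rw [mem_centralizer_singleton_iff, MonoidHom.mem_ker, map_mul, map_inv, inv_mul_eq_one, map_mul,
      map_mul, map_inv, eq_mul_inv_iff_mul_eq]
  have dc : ∀ a, ⁅a, x⁆ = d a⁻¹ := fun a => by simp only [d]; group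
  have c5 := FT.BG4.relIndex_centralizer_le_card (H := A)
    (S := A ⊓ (centralizer {φ x}).comap φ) (v := x) fun a ha => by
      rw [dc]; exact ⟨dA _ (inv_mem ha), (dk _).1 (dd _ (inv_mem ha))⟩
  have c6 := FT.BG4.relIndex_centralizer_le_card (H := A ⊓ (centralizer {φ x}).comap φ)
    (S := φ.ker) (v := x) fun a ha => by
      rw [dc]; exact (dk _).2 (inv_mem ha).2
  have c7 := card_mul_relIndex (inf_le_right : centralizer {x} ⊓ (A ⊓ (centralizer {φ x}).comap φ) ≤ _)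
  have c8 := Trans.card_le_of_le (inf_le_inf_left (centralizer {x})
    (inf_le_left : A ⊓ (centralizer {φ x}).comap φ ≤ A))
  rw [inf_relIndex_right] at c7
  rw [← c4, h3] at c1 c8
  rw [h3] at c6
  nlinarith

theorem zmod_cube : ∀ t : Multiplicative (ZMod 3), t ^ 3 = 1 := by decide

theorem exists_base (T : Sylow 3 (Equiv.Perm (Fin (3 ^ 2)))) :
    ∃ B : Subgroup (T : Subgroup (Equiv.Perm (Fin (3 ^ 2)))), Nat.card B = 27 ∧
      (∀ a ∈ B, ∀ b ∈ B, a * b = b * a) ∧ ∀ a ∈ B, a ^ 3 = 1 := by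
  have : Fact (Nat.Prime 3) := ⟨Nat.prime_three⟩
  let C := Multiplicative (ZMod 3)
  let e : (Σ _ : Fin 3, C) ≃ Fin (3 ^ 2) := Finite.equivFinOfCardEq (by simp [C])
  let f : (Fin 3 → C) →* Equiv.Perm (Fin (3 ^ 2)) := e.permCongrHom.toMonoidHom.comp
    ((Equiv.Perm.sigmaCongrRightHom fun _ : Fin 3 => C).comp
      (MonoidHom.compLeft (MulAction.toPermHom C C) (Fin 3)))
  have hf : Function.Injective f := e.permCongrHom.injective.comp
    (Equiv.Perm.sigmaCongrRightHom_injective.comp fun u v h => funext fun i =>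
      MulAction.toPerm_injective (congrFun h i))
  have h27 : Nat.card f.range = 27 := by
    rw [← Nat.card_congr (MonoidHom.ofInjective hf).toEquiv]; simp [C]
  obtain ⟨g, -, hg⟩ := (isSylowIn_top T).exists_cj_le (IsPGroup.of_card (n := 3) h27) le_top
  refine ⟨(cj g f.range).subgroupOf T, by
    rw [Nat.card_congr (subgroupOfEquivOfLe hg).toEquiv, card_cj, h27], ?_, ?_⟩
  · rintro a ⟨_, ⟨u, rfl⟩, ha⟩ b ⟨_, ⟨v, rfl⟩, hb⟩
    refine Subtype.ext ?_
    rw [coe_mul, coe_mul, ← show _ = (a : Equiv.Perm (Fin (3 ^ 2))) from ha,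
      ← show _ = (b : Equiv.Perm (Fin (3 ^ 2))) from hb, ← map_mul, ← map_mul, ← map_mul, ← map_mul,
      mul_comm]
  · rintro a ⟨_, ⟨u, rfl⟩, ha⟩
    refine Subtype.ext ?_
    have : u ^ 3 = 1 := funext fun i => zmod_cube (u i)
    rw [coe_pow, ← show _ = (a : Equiv.Perm (Fin (3 ^ 2))) from ha, ← map_pow, ← map_pow, this,
      map_one, map_one, coe_one]

/-- A wreath product quotient is the whole group. -/
theorem injective_of_wreath (hQ : IsPGroup 3 Q) {x : Q} (hx : x ^ 3 = 1)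
    (hC : Nat.card (centralizer ({x} : Set Q)) ≤ 9) {T : Sylow 3 (Equiv.Perm (Fin (3 ^ 2)))}
    (φ : Q →* (T : Subgroup (Equiv.Perm (Fin (3 ^ 2))))) (hφ : Function.Surjective φ) :
    Function.Injective φ := by
  have : Fact (Nat.Prime 3) := ⟨Nat.prime_three⟩
  by_contra hn
  obtain ⟨K, -, h1, h2, -, h3⟩ := exists_invariant_step_down (P := ⊤) (M := ⊥) (N := φ.ker)
    (hQ.to_subgroup _) (hQ.to_subgroup _) le_normalizer_of_normal le_normalizer_of_normal
    (bot_lt_iff_ne_bot.2 (mt φ.ker_eq_bot_iff.1 hn))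
  have : K.Normal := normalizer_eq_top_iff.1 (top_le_iff.1 h2)
  obtain ⟨B, h4, h5, h6⟩ := exists_base T
  have hT : Nat.card (T : Subgroup (Equiv.Perm (Fin (3 ^ 2)))) = 3 * Nat.card B := by
    rw [T.card_eq_multiplicity, factorization_card_perm_sq, h4]; rfl
  have : B.Normal := normal_of_index_eq_prime T.isPGroup' (index_eq_of_card_eq_mul hT)
  let ψ := QuotientGroup.lift K φ h1.le
  have hψ : Function.Surjective ψ := QuotientGroup.lift_surjective_of_surjective K φ hφ h1.le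
  have h7 : Nat.card ψ.ker = 3 := by
    have e1 := card_mul_relIndex h1.le
    rw [QuotientGroup.ker_lift, ← relIndex_ker, QuotientGroup.ker_mk']
    exact Nat.eq_of_mul_eq_mul_left Nat.card_pos (e1.trans (h3.trans (mul_comm _ _)))
  have h8 := card_le_of_ker ψ (le_center_of_card_eq_prime (hQ.to_quotient K) _ h7) h7
    (A := B.comap ψ) (ker_le_comap ψ B) (fun a ha b hb => by
      rw [MonoidHom.mem_ker, map_commutatorElement, commutatorElement_eq_one_iff_mul_comm]
      exact h5 _ ha _ hb) (fun a ha => by rw [MonoidHom.mem_ker, map_pow]; exact h6 _ ha)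
    (x := (x : Q ⧸ K)) (by rw [← QuotientGroup.mk_pow, hx]; rfl)
    ((card_centralizer_quotient_le K x).trans hC)
  have h9 := card_mul_relIndex (ker_le_comap ψ B)
  rw [relIndex_ker, map_comap_eq_self_of_surjective hψ, h7, h4] at h9
  omega

end Cfsg.Lib.Fix4
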