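import Cfsg.Agent.Fix4.Act
import Cfsg.Agent.Fix4.Wr
import Cfsg.Agent.Trans.Fus
import Cfsg.Agent.Solv.SectionAut

/-! Simple groups of fixity four with point stabilizers of odd order divisible by three. -/

set_option autoImplicit false

namespace Cfsg.Lib.Fix4

open Subgroup Cfsg.Lib.Trans MulAction Cfsg.Lib.Solv.PG
open scoped commutatorElement

set_option synthInstance.maxSize 2000 in
set_option synthInstance.maxHeartbeats 200000 in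
theorem s4_three : ∀ σ : Equiv.Perm (Fin 4), σ ≠ 1 → σ ^ 3 = 1 → ∀ ρ : Equiv.Perm (Fin 4),
    (σ * ρ) ^ 3 = 1 → (σ⁻¹ * ρ) ^ 3 = 1 → ∀ τ : Equiv.Perm (Fin 4), ρ = τ * σ * τ⁻¹ →
    (σ⁻¹ * ρ = 1 ∧ τ ^ 3 = 1) ∨ (τ ^ 2 = 1 ∧ τ ≠ 1 ∧ ∃ j, σ j ≠ j ∧ τ j = j) := by
  decide +kernel

theorem eq_one_of_odd {H : Type*} [Monoid H] {t : H} {k : ℕ} (hk : Odd k) (h1 : t ^ k = 1)
    (h2 : t ^ 2 = 1) : t = 1 := by
  obtain ⟨j, rfl⟩ := hk
  rwa [pow_succ, pow_mul, h2, one_pow, one_mul] at h1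

variable {G Ω : Type*} [Group G] [Finite G] [MulAction G Ω] [Finite Ω] {n : ℕ} {x y : G}
  (hodd : ∀ (g : G) (b : Ω), g • b = b → Odd (orderOf g))
include hodd

omit [Finite G] in
theorem conj_odd (h4 : nf Ω x ≤ 4) {V : Subgroup G} (hV : V ≤ Ms Ω x) (h3 : IsPGroup 3 V) {a m : G}
    (ha : a ∈ V) (hm : m ∈ Ms Ω x) (ham : m * a * m⁻¹ ∈ V) (haK : a ∉ Kp Ω x) :
    a⁻¹ * (m * a * m⁻¹) ∈ Kp Ω x ∧ m ^ 3 ∈ Kp Ω x := by
  obtain ⟨ψ, h⟩ := exists_fr h4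
  rcases s4_three (ψ ⟨a, hV ha⟩) (fun e => haK ((h.ker _).1 e)) (Fr.pow_three h3 ha)
    (ψ ⟨_, hV ham⟩) (map_mul ψ _ _ ▸ Fr.pow_three h3 (mul_mem ha ham))
    (map_inv ψ _ ▸ map_mul ψ _ _ ▸ Fr.pow_three h3 (mul_mem (inv_mem ha) ham)) (ψ ⟨m, hm⟩)
    (by rw [← map_inv, ← map_mul, ← map_mul]; rfl) with ⟨h1, h2⟩ | ⟨h1, h2, j, h5, h6⟩
  · rw [← map_inv, ← map_mul] at h1
    exact ⟨(h.ker _).1 h1, (h.ker (⟨m, hm⟩ ^ 3)).1 ((map_pow ψ _ _).trans h2)⟩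
  · obtain ⟨b, -, hb⟩ := h.mv _ _ j h5 h6
    refine absurd (eq_one_of_odd (hodd m b hb) ?_ h1) h2
    rw [← map_pow, show (⟨m, hm⟩ : Ms Ω x) ^ orderOf m = 1 from
      Subtype.ext (pow_orderOf_eq_one m), map_one]

theorem le_Kp (hG : commutator G = ⊤) (P : Sylow 3 G) (hx : Big Ω 3 n x) (h4 : n ≤ 4)
    (hxP : x ∈ (P : Subgroup G)) (hPM : (P : Subgroup G) ≤ Ms Ω x)
    (hall : ∀ y ∈ (P : Subgroup G), Big Ω 3 n y → Sm Ω y x) : (P : Subgroup G) ≤ Kp Ω x := by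
  have : Fact (Nat.Prime 3) := ⟨Nat.prime_three⟩
  obtain ⟨z, hz, hzc, -, hz3⟩ := exists_mem_centralizer_orderOf_eq P.isPGroup'
    (P.isPGroup'.to_inf_left (K := Kp Ω x)) (fun g hg => mem_normalizer_of_cj_le (cj_le_iff.2
      fun t ht => mem_inf.2 ⟨mul_mem (mul_mem hg ht.1) (inv_mem hg), conj_mem_Kp (hPM hg) ht.2⟩))
    fun e => hx.ne_one (mem_bot.1 (e ▸ mem_inf.2 ⟨hxP, self_mem_Kp x⟩))
  have hz1 := (hx.of_mem hz.2 hz3).ne_one
  have pz : ∀ g : G, IsPGroup 3 (zpowers (g * z * g⁻¹)) := fun g =>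
    isPGroup_zpowers (k := 1) (by rw [conj_pow, pow_one, ← hz3, pow_orderOf_eq_one]; group)
  refine fun a ha => (isSylowIn_top P).inf_commutator_le (fun b hb g _ hg => ?_)
    ⟨ha, show a ∈ commutator G from hG ▸ mem_top a⟩
  obtain ⟨Q, hQ, hzQ⟩ := exists_isSylowIn_ge (H := centralizer {g * b * g⁻¹}) (pz 1)
    (zpowers_le.2 (mem_centralizer_singleton_iff.2 (by simpa using (hzc _ hg).symm)))
  obtain ⟨c, hc, hc'⟩ := hQ.exists_cj_le (pz g) (zpowers_le.2 (mem_centralizer_singleton_iff.2 (by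
    rw [conj_mul, conj_mul, hzc b hb])))
  obtain ⟨t, -, ht⟩ := (isSylowIn_top P).exists_cj_le hQ.isPGroup le_top
  have h1 := hx.closed P.isPGroup' hall hz.1 hz.2 hz1 (g := t)
    (ht (conj_mem_cj.2 (hzQ (by simp))))
  have h2 := hx.closed P.isPGroup' hall hz.1 hz.2 hz1 (g := t * (c * g)) (by
    have := ht (conj_mem_cj.2 (hc' (conj_mem_cj.2 (mem_zpowers _))))
    convert this using 1
    group)
  have h3 : c * g * b * (c * g)⁻¹ = g * b * g⁻¹ := by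
    rw [← mul_inv_eq_iff_eq_mul.2 (mem_centralizer_singleton_iff.1 hc)]; group
  replace h2 := (mul_mem_cancel_left h1).1 h2
  rw [← h3] at hg ⊢
  by_cases hK : b ∈ Kp Ω x
  · exact mul_mem (inv_mem hK) (conj_mem_Kp h2 hK)
  · exact (conj_odd hodd (hx.nf_eq ▸ h4) hPM P.isPGroup' hb h2 hg hK).1

omit hodd in
theorem three_emb {P : Subgroup G} (hP : IsSylowIn 3 P ⊤) (hx : Big Ω 3 n x) (hK : P ≤ Kp Ω x)
    {g : G} (hg : g ∉ Ms Ω x) : ¬ 3 ∣ Nat.card (Ms Ω x ⊓ cj g (Ms Ω x) : Subgroup G) := fun h => by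
  have : Fact (Nat.Prime 3) := ⟨Nat.prime_three⟩
  have key : ∀ v ∈ Ms Ω x, orderOf v = 3 → Sm Ω v x := fun v hv h3 => by
    obtain ⟨c, hc, hc'⟩ := (hP.mono (hK.trans (Kp_le_Ms x)) le_top).exists_cj_le
      (isPGroup_zpowers (k := 1) (by rw [pow_one, ← h3, pow_orderOf_eq_one])) (zpowers_le.2 hv)
    have := conj_mem_Kp (inv_mem hc) (hK (hc' (conj_mem_cj.2 (mem_zpowers v))))
    exact sm_of_mem (by simpa [mul_assoc] using this) (hx.nf_eq ▸ hx.max v h3)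
  obtain ⟨⟨u, hu⟩, hu3⟩ := exists_prime_orderOf_dvd_card' 3 h
  rw [Subgroup.orderOf_mk] at hu3
  have h1 := (key _ (mem_cj.1 hu.2) (by
    rw [← hu3]; simpa using (MulAut.conj g⁻¹).orderOf_eq u)).conj g
  refine hg (mem_Ms_iff.2 (h1.symm.trans ?_))
  simpa [mul_assoc] using key u hu.1 hu3

theorem Pair.wreath (hG : commutator G = ⊤) {P : Sylow 3 G} (h : Pair Ω 3 n (P : Subgroup G) x y)
    (h1 : 1 ≤ n) (h4 : n ≤ 4) :
    (Nat.card P = 9 ∧ ∀ x ∈ (P : Subgroup G), x ^ 3 = 1) ∨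
      ∃ T : Sylow 3 (Equiv.Perm (Fin 9)),
        Nonempty ((P : Subgroup G) ≃* (T : Subgroup (Equiv.Perm (Fin 9)))) := by
  have : Fact (Nat.Prime 3) := ⟨Nat.prime_three⟩
  have key : ∀ z : G, nf Ω z = n → Nat.card ((P : Subgroup G) ⊓ Ms Ω z : Subgroup G) ≤
      3 * Nat.card ((P : Subgroup G) ⊓ Kp Ω z : Subgroup G) := fun z hz => by
    obtain ⟨ψ, hψ⟩ := exists_fr (x := z) (Ω := Ω) (by omega)
    exact Pair.inf_Kp (P := (P : Subgroup G)) (x := z) (Ω := Ω) ▸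
      hψ.card_three inf_le_right P.isPGroup'.to_inf_left
  obtain ⟨h5, h6, h7⟩ := h.small (key x h.bx.nf_eq) (key y h.by'.nf_eq)
  by_cases hPM : (P : Subgroup G) ≤ Ms Ω x
  · rw [inf_of_le_left hPM] at h5 h7
    exact Or.inl ⟨h5, h7⟩
  have x3 : x ^ 3 = 1 := h.bx.ord ▸ pow_orderOf_eq_one x
  have hC : Nat.card (centralizer ({⟨x, h.hx⟩} : Set (P : Subgroup G))) = 9 := by
    rw [← show _ = 9 from h5, ← h6, ← Nat.card_congr (subgroupOfEquivOfLe inf_le_left).toEquiv]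
    congr 2
    ext a
    rw [mem_subgroupOf, mem_inf, and_iff_right a.2, mem_centralizer_singleton_iff,
      mem_centralizer_singleton_iff, Subtype.ext_iff]
    rfl
  by_cases hw : HasWreathQuotient 3 P
  · obtain ⟨T, φ, hφ⟩ := hw
    exact Or.inr ⟨T, ⟨MulEquiv.ofBijective φ
      ⟨injective_of_wreath P.isPGroup' (Subtype.ext x3) hC.le φ hφ, hφ⟩⟩⟩
  exfalso
  obtain ⟨⟨b, hb⟩⟩ := (Nat.card_pos_iff.1 (show 0 < nf Ω x from h.bx.nf_eq ▸ h1)).1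
  have noinv : ∀ m ∈ normalizer ((P : Subgroup G) : Set G), m * x * m⁻¹ ≠ x⁻¹ := fun m hm e => by
    have hM : m ∈ Ms Ω x := mem_Ms_iff.2 fun b => by rw [e, inv_smul_eq_iff, eq_comm]
    have hy : y ∈ (P : Subgroup G) ⊓ Ms Ω x := h.le ⟨h.hy, self_mem_Kp y⟩
    have h8 := (conj_odd hodd (h.bx.nf_eq ▸ h4) inf_le_right P.isPGroup'.to_inf_left hy hM
      (mem_inf.2 ⟨mem_normalizer_conj hm h.hy, mul_mem (mul_mem hM hy.2) (inv_mem hM)⟩) fun e =>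
        h.by'.ne_one (mem_bot.1 (h.inf ▸ mem_inf.2 ⟨⟨h.hy, e⟩, h.hy, self_mem_Kp y⟩))).2
    obtain ⟨k, hk⟩ := hodd _ b (h8 b hb)
    have e2 : Commute (m ^ 2) x := mul_inv_eq_iff_eq_mul.1 (by
      rw [show m ^ 2 * x * (m ^ 2)⁻¹ = m * (m * x * m⁻¹) * m⁻¹ by rw [sq]; group, e,
        ← conj_inv, e, inv_inv])
    have e3 : (m ^ 2) ^ (3 * k + 1) = m⁻¹ := eq_inv_of_mul_eq_one_left (by
      rw [← pow_mul, ← pow_succ, ← pow_orderOf_eq_one (m ^ 3), hk, ← pow_mul]; congr 1; ring)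
    have e4 := e2.pow_left (3 * k + 1)
    rw [e3, Commute.inv_left_iff] at e4
    rw [e4.eq, mul_inv_cancel_right, eq_inv_iff_mul_eq_one] at e
    exact h.bx.ne_one (eq_one_of_odd (k := 3) (by decide) x3 (sq x ▸ e))
  obtain ⟨h8, h9⟩ := exists_comm_eq P.isPGroup' hC
  let α := Solv.Coprime.quotAut (normalizerMonoidHom (P : Subgroup G)) (commutator P)
    fun a u hu => ((characteristic_iff_map_le.1 inferInstance) _ (mem_map_of_mem _ hu) :)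
  obtain ⟨K, hK, hK'⟩ := nine h8 (fun hc => by
    have := isCyclic_of_isCyclic_quotient_commutator P.isPGroup' hc
    exact hPM fun a ha => mem_Ms_of_comm (congrArg Subtype.val
      (mul_comm' (⟨a, ha⟩ : (P : Subgroup G)) ⟨x, h.hx⟩))) α.range (fun hd => by
    rw [← index_ker] at hd
    refine ((isSylowIn_top P).mono le_normalizer le_top).not_dvd (hd.trans (index_dvd_of_le
      fun a ha => (Solv.Coprime.mem_ker_quotAut _ _ _ _).2 fun u => ?_))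
    exact commutator_mem_commutator (mem_top (⟨a, ha⟩ : (P : Subgroup G))) (mem_top u)) (by
    rintro _ ⟨g, rfl⟩
    refine ⟨((⟨x, h.hx⟩ : (P : Subgroup G)) : _ ⧸ _), fun e => ?_⟩
    obtain ⟨c, hc⟩ := h9 _ (QuotientGroup.eq.1 e)
    have e' : (c : G) * x * (c : G)⁻¹ * x⁻¹ = ((g : G) * x * (g : G)⁻¹)⁻¹ * x⁻¹ :=
      congrArg Subtype.val hc
    refine noinv ((g : G)⁻¹ * c) (mul_mem (inv_mem g.2) (le_normalizer c.2)) ?_
    rw [show (g : G)⁻¹ * c * x * ((g : G)⁻¹ * c)⁻¹ = (g : G)⁻¹ * (c * x * (c : G)⁻¹) * g by group,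
      mul_right_cancel e']
    group)
  have h10 := ((isSylowIn_top P).mono le_normalizer le_top).inf_commutator_le
    (F := (K.comap (QuotientGroup.mk' _)).map (P : Subgroup G).subtype) fun b hb g hg hg' =>
      ⟨(⟨b, hb⟩ : (P : Subgroup G))⁻¹ * ⟨_, hg'⟩, hK' _ ⟨⟨g, hg⟩, rfl⟩ (⟨b, hb⟩ : (P : Subgroup G)),
        rfl⟩
  rw [← inf_commutator_eq_of_subgroupOf_eq P le_normalizer (yoshida P hw), hG, inf_top_eq] at h10
  refine hK ((eq_top_iff' _).2 fun u => ?_)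
  obtain ⟨u, rfl⟩ := QuotientGroup.mk_surjective u
  exact (mem_map_iff_mem (P : Subgroup G).subtype_injective).1 (h10 u.2)

end Cfsg.Lib.Fix4
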